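import Cfsg.Agent.H902.L34.Sl
import Cfsg.Agent.H745.L34.Adj
import Cfsg.Agent.H118.L34.PL

/-!
# S5917, row M2: simple modules without Borel fixed vector are of type 16 (helper902)
-/

set_option autoImplicit false
set_option linter.unusedSectionVars false
set_option linter.unusedSimpArgs false
set_option linter.unnecessarySeqFocus false

namespace Cfsg.Agent.H902.L34

open Matrix Cfsg.Agent.H691.L34

variable {F : Type} [Field F] [Fintype F]

theorem charTwo (hF : Fintype.card F = 4) : CharP F 2 :=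
  CharTwo.of_one_ne_zero_of_two_eq_zero one_ne_zero (Cfsg.Agent.H745.L34.two0 hF)

section

variable [CharP F 2]

/-- the Borel subgroup -/
theorem borel (g : SL3 F) (h10 : g.1 1 0 = 0) (h20 : g.1 2 0 = 0) (h21 : g.1 2 1 = 0) :
    ∃ (a b c : F) (d e : Fˣ), g = up a b c * (h1 d * h2 e) := by
  have hdet : g.1 0 0 * g.1 1 1 * g.1 2 2 = 1 := by
    have h := g.2
    rw [Matrix.det_fin_three, h10, h20, h21] at h
    simpa using h
  have n0 : g.1 0 0 ≠ 0 := by
    intro h
    rw [h, zero_mul, zero_mul] at hdet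
    exact zero_ne_one hdet
  have n1' : g.1 1 1 ≠ 0 := by
    intro h
    rw [h, mul_zero, zero_mul] at hdet
    exact zero_ne_one hdet
  have n2' : g.1 2 2 ≠ 0 := by
    intro h
    rw [h, mul_zero] at hdet
    exact zero_ne_one hdet
  have h11 : (g.1 0 0)⁻¹ * (g.1 2 2)⁻¹ = g.1 1 1 := by
    field_simp
    linear_combination -hdet
  refine ⟨g.1 0 1 / g.1 1 1, g.1 1 2 / g.1 2 2, g.1 0 2 / g.1 2 2, Units.mk0 _ n0, (Units.mk0 _ n2')⁻¹, ?_⟩
  apply ext3
  intro i j
  fin_cases i <;> fin_cases j <;>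
    simp [up, h1, h2, mk_mul, Matrix.mul_apply, Fin.sum_univ_three, h10, h20, h21, h11, n0, n1', n2']

end

variable {V : Type} [AddCommGroup V] [Module (ZMod 2) V] [Module.Finite (ZMod 2) V]
  {ρ : Representation (ZMod 2) (G3 F) V}

/-- `W` is the adjoint module -/
theorem is_adj (hF : Fintype.card F = 4) (hc : CT ρ) {W : Submodule (ZMod 2) V} (hW : Simp ρ W)
    (hB : ∀ w ∈ W, (∀ g : G3 F, g.1 1 0 = 0 → g.1 2 0 = 0 → g.1 2 1 = 0 → ρ g w = w) → w = 0) :
    Cfsg.Agent.H745.L34.IsAdj ρ W := by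
  classical
  have := charTwo hF
  have hfV : Finite V := Module.finite_of_finite (ZMod 2)
  have hfW : Finite W := inferInstance
  have hnt : Nontrivial W := Submodule.nontrivial_iff_ne_bot.2 hW.2.1
  set σ := sub ρ W hW.1 with hσ
  have hscc : ∀ (a : Fˣ) (h : a ^ 3 = 1), sc a h ∈ Subgroup.center (SL3 F) := by
    intro a h
    rw [Subgroup.mem_center_iff]
    intro g
    apply ext3
    intro i j
    show (g.1 * (sc a h).1) i j = ((sc a h).1 * g.1) i j
    fin_cases i <;> fin_cases j <;>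
      simp [sc, Matrix.mul_apply, Fin.sum_univ_three, mul_comm]
  have hs : ScTriv σ := fun a h y => Subtype.ext (hc _ (hscc a h) _)
  have hirr : Irr σ := by
    intro X hX
    have hinv : Inv ρ (X.map W.subtype) := by
      rintro g _ ⟨x, hx, rfl⟩
      exact ⟨σ g x, hX g x hx, rfl⟩
    rcases hW.2.2 (X.map W.subtype) hinv (Submodule.map_subtype_le _ _) with h | h
    · left
      rw [eq_bot_iff]
      intro x hx
      have h2 : (x : V) ∈ X.map W.subtype := ⟨x, hx, rfl⟩
      rw [h] at h2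
      exact (Submodule.mem_bot _).2 (Subtype.ext ((Submodule.mem_bot _).1 h2))
    · right
      rw [eq_top_iff]
      intro x _
      have h2 : (x : V) ∈ X.map W.subtype := by rw [h]; exact x.2
      obtain ⟨z, hz, hzx⟩ := h2
      have : z = x := Subtype.ext hzx
      rwa [← this]
  rcases exists_dat σ hF hs with ⟨y, e1, e2, hy⟩ | ⟨y, hy⟩
  · exfalso
    apply hy.ne
    apply Subtype.ext
    refine hB y y.2 fun g h10 h20 h21 => ?_
    obtain ⟨a, b, c, d, e, rfl⟩ := borel g h10 h20 h21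
    have h1' : σ (up a b c * (h1 d * h2 e)) y = y := by
      rw [rmul, rmul, ← h_eq σ hF hs, hy.tor, hy.tor, hy.fix]
    exact congrArg Subtype.val h1'
  · have hfT : Finite (Tl F) := inferInstance
    obtain ⟨φ, -, hφ⟩ := iso_of_datN (ρ := adj F) (ρ' := σ) hF adj_sc hs adj_irr hirr (yy_datN hF) hy
    obtain ⟨Φ, hΦ⟩ : ∃ Φ : M3 F → V, ∀ (X : M3 F) (h : X.trace = 0), Φ X = ((φ ⟨X, h⟩ : W) : V) :=
      ⟨fun X => if h : X.trace = 0 then ((φ ⟨X, h⟩ : W) : V) else 0, fun X h => dif_pos h⟩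
    refine ⟨Φ, ?_, ?_, ?_, ?_⟩
    · intro X Y hX hY
      have hXY : (X + Y).trace = 0 := by rw [Matrix.trace_add, hX, hY, add_zero]
      rw [hΦ X hX, hΦ Y hY, hΦ _ hXY, ← Submodule.coe_add, ← map_add]
      rfl
    · intro X hX h
      rw [hΦ X hX] at h
      have h2 : φ ⟨X, hX⟩ = 0 := Subtype.ext h
      have h3 := (LinearEquiv.map_eq_zero_iff φ).1 h2
      exact congrArg Subtype.val h3
    · intro v
      constructor
      · intro hv
        obtain ⟨X, hX⟩ := φ.surjective ⟨v, hv⟩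
        refine ⟨X.1, X.2, ?_⟩
        rw [hΦ X.1 X.2]
        exact congrArg Subtype.val hX
      · rintro ⟨X, hX, rfl⟩
        rw [hΦ X hX]
        exact (φ ⟨X, hX⟩).2
    · intro g X hX
      have hX' : (g.1 * X * (g⁻¹ : G3 F).1).trace = 0 := (adj F g ⟨X, hX⟩).2
      rw [hΦ X hX, hΦ _ hX']
      exact (congrArg Subtype.val (hφ g ⟨X, hX⟩)).symm

/-- **M2** : a simple submodule without a vector fixed by the Borel subgroup -/
theorem simp_16 (hF : Fintype.card F = 4) (hc : CT ρ) {W : Submodule (ZMod 2) V} (hW : Simp ρ W)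
    (hB : ∀ w ∈ W, (∀ g : G3 F, g.1 1 0 = 0 → g.1 2 0 = 0 → g.1 2 1 = 0 → ρ g w = w) → w = 0) : Is16 ρ W :=
  Cfsg.Agent.H745.L34.adj_dims hF (is_adj hF hc hW hB)

/-- the form of helper118 -/
theorem simp16 (hF : Fintype.card F = 4) : Cfsg.Agent.H118.L34.Simp16 F :=
  fun hc _ hW hB => simp_16 hF hc hW hB

end Cfsg.Agent.H902.L34
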