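import Mathlib
import Cfsg.Agent.LieClassical.SLGen

/-!
# Elements of `SL₃` in characteristic two (helper902)
-/

set_option autoImplicit false
set_option linter.unusedSectionVars false
set_option linter.unusedSimpArgs false
set_option linter.unnecessarySeqFocus false
set_option linter.unusedTactic false
set_option linter.unreachableTactic false

namespace Cfsg.Agent.H902.L34

variable {F : Type*} [Field F] [CharP F 2]

/-- `SL₃` -/
abbrev SL3 (F : Type*) [Field F] := Matrix.SpecialLinearGroup (Fin 3) F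

/-- upper unitriangular -/
def up (a b c : F) : SL3 F := ⟨!![1, a, c; 0, 1, b; 0, 0, 1], by simp [Matrix.det_fin_three]⟩

/-- lower unitriangular -/
def lo (a b c : F) : SL3 F := ⟨!![1, 0, 0; a, 1, 0; c, b, 1], by simp [Matrix.det_fin_three]⟩

theorem neg_one_eq : (-1 : F) = 1 := CharTwo.neg_eq 1

/-- first reflection -/
def n1 : SL3 F := ⟨!![0, 1, 0; 1, 0, 0; 0, 0, 1], by simp [Matrix.det_fin_three, CharTwo.neg_eq]⟩

/-- second reflection -/
def n2 : SL3 F := ⟨!![1, 0, 0; 0, 0, 1; 0, 1, 0], by simp [Matrix.det_fin_three, CharTwo.neg_eq]⟩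

/-- first torus -/
def h1 (a : Fˣ) : SL3 F := ⟨!![(a : F), 0, 0; 0, (a : F)⁻¹, 0; 0, 0, 1], by simp [Matrix.det_fin_three]⟩

/-- second torus -/
def h2 (a : Fˣ) : SL3 F := ⟨!![1, 0, 0; 0, (a : F), 0; 0, 0, (a : F)⁻¹], by simp [Matrix.det_fin_three]⟩

omit [CharP F 2] in
theorem ext3 {A B : SL3 F} (h : ∀ i j, (A : Matrix (Fin 3) (Fin 3) F) i j = (B : Matrix (Fin 3) (Fin 3) F) i j) :
    A = B := Subtype.ext (Matrix.ext h)

omit [CharP F 2] in
theorem mk_mul {A B : Matrix (Fin 3) (Fin 3) F} (hA : A.det = 1) (hB : B.det = 1) :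
    (⟨A, hA⟩ * ⟨B, hB⟩ : SL3 F) = ⟨A * B, by rw [Matrix.det_mul, hA, hB, one_mul]⟩ := rfl

omit [CharP F 2] in
theorem up_mul (a b c a' b' c' : F) : up a b c * up a' b' c' = up (a + a') (b + b') (c + c' + a * b') := by
  apply ext3
  intro i j
  fin_cases i <;> fin_cases j <;> simp [up, mk_mul, Matrix.mul_apply, Fin.sum_univ_three] <;> ring

omit [CharP F 2] in
theorem lo_mul (a b c a' b' c' : F) : lo a b c * lo a' b' c' = lo (a + a') (b + b') (c + c' + b * a') := by
  apply ext3
  intro i j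
  fin_cases i <;> fin_cases j <;> simp [lo, mk_mul, Matrix.mul_apply, Fin.sum_univ_three] <;> ring

omit [CharP F 2] in
theorem up_zero : up (0 : F) 0 0 = 1 := by
  apply ext3
  intro i j
  fin_cases i <;> fin_cases j <;> simp [up]

omit [CharP F 2] in
theorem lo_zero : lo (0 : F) 0 0 = 1 := by
  apply ext3
  intro i j
  fin_cases i <;> fin_cases j <;> simp [lo]

theorem n1_sq : (n1 : SL3 F) * n1 = 1 := by
  apply ext3
  intro i j
  fin_cases i <;> fin_cases j <;> simp [n1, mk_mul, Matrix.mul_apply, Fin.sum_univ_three]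

theorem n2_sq : (n2 : SL3 F) * n2 = 1 := by
  apply ext3
  intro i j
  fin_cases i <;> fin_cases j <;> simp [n2, mk_mul, Matrix.mul_apply, Fin.sum_univ_three]

/-- `n1` and the radical of the first parabolic -/
theorem n1_up (b c : F) : n1 * up 0 b c = up 0 c b * n1 := by
  apply ext3
  intro i j
  fin_cases i <;> fin_cases j <;> simp [n1, up, mk_mul, Matrix.mul_apply, Fin.sum_univ_three]

theorem n2_up (a c : F) : n2 * up a 0 c = up c 0 a * n2 := by
  apply ext3
  intro i j
  fin_cases i <;> fin_cases j <;> simp [n2, up, mk_mul, Matrix.mul_apply, Fin.sum_univ_three]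

theorem n1_lo (b c : F) : n1 * lo 0 b c = lo 0 c b * n1 := by
  apply ext3
  intro i j
  fin_cases i <;> fin_cases j <;> simp [n1, lo, mk_mul, Matrix.mul_apply, Fin.sum_univ_three]

theorem n2_lo (a c : F) : n2 * lo a 0 c = lo c 0 a * n2 := by
  apply ext3
  intro i j
  fin_cases i <;> fin_cases j <;> simp [n2, lo, mk_mul, Matrix.mul_apply, Fin.sum_univ_three]

/-- rank one, first node -/
theorem n1_lo_a (a : Fˣ) : n1 * lo (a : F) 0 0 = lo (a : F)⁻¹ 0 0 * h1 a * up (a : F)⁻¹ 0 0 := by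
  apply ext3
  intro i j
  fin_cases i <;> fin_cases j <;>
    simp [n1, lo, h1, up, mk_mul, Matrix.mul_apply, Fin.sum_univ_three, CharTwo.add_self_eq_zero]

theorem n2_lo_b (a : Fˣ) : n2 * lo 0 (a : F) 0 = lo 0 (a : F)⁻¹ 0 * h2 a * up 0 (a : F)⁻¹ 0 := by
  apply ext3
  intro i j
  fin_cases i <;> fin_cases j <;>
    simp [n2, lo, h2, up, mk_mul, Matrix.mul_apply, Fin.sum_univ_three, CharTwo.add_self_eq_zero]

theorem up_n1 (a : F) : up a 0 0 * n1 = n1 * lo a 0 0 := by
  apply ext3
  intro i j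
  fin_cases i <;> fin_cases j <;> simp [n1, lo, up, mk_mul, Matrix.mul_apply, Fin.sum_univ_three]

theorem up_n2 (a : F) : up 0 a 0 * n2 = n2 * lo 0 a 0 := by
  apply ext3
  intro i j
  fin_cases i <;> fin_cases j <;> simp [n2, lo, up, mk_mul, Matrix.mul_apply, Fin.sum_univ_three]

theorem lo_eq (a : Fˣ) : lo (a : F) 0 0 = up (a : F)⁻¹ 0 0 * n1 * h1 a * up (a : F)⁻¹ 0 0 := by
  apply ext3
  intro i j
  fin_cases i <;> fin_cases j <;>
    simp [n1, lo, h1, up, mk_mul, Matrix.mul_apply, Fin.sum_univ_three, CharTwo.add_self_eq_zero]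

theorem lo_eq' (a : Fˣ) : lo 0 (a : F) 0 = up 0 (a : F)⁻¹ 0 * n2 * h2 a * up 0 (a : F)⁻¹ 0 := by
  apply ext3
  intro i j
  fin_cases i <;> fin_cases j <;>
    simp [n2, lo, h2, up, mk_mul, Matrix.mul_apply, Fin.sum_univ_three, CharTwo.add_self_eq_zero]

/-- the torus and the upper unitriangular elements -/
theorem h1_up (d : Fˣ) (a b c : F) : h1 d * up a b c = up ((d : F) * a * d) ((d : F)⁻¹ * b) ((d : F) * c) * h1 d := by
  apply ext3
  intro i j
  fin_cases i <;> fin_cases j <;> simp [h1, up, mk_mul, Matrix.mul_apply, Fin.sum_univ_three]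

theorem h2_up (d : Fˣ) (a b c : F) : h2 d * up a b c = up ((d : F)⁻¹ * a) ((d : F) * b * d) ((d : F) * c) * h2 d := by
  apply ext3
  intro i j
  fin_cases i <;> fin_cases j <;> simp [h2, up, mk_mul, Matrix.mul_apply, Fin.sum_univ_three] <;> field_simp

theorem h1_lo (d : Fˣ) (a b c : F) :
    h1 d * lo a b c = lo ((d : F)⁻¹ * a * (d : F)⁻¹) (b * d) (c * (d : F)⁻¹) * h1 d := by
  apply ext3
  intro i j
  fin_cases i <;> fin_cases j <;> simp [h1, lo, mk_mul, Matrix.mul_apply, Fin.sum_univ_three]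

theorem h2_lo (d : Fˣ) (a b c : F) :
    h2 d * lo a b c = lo ((d : F) * a) ((d : F)⁻¹ * b * (d : F)⁻¹) (c * (d : F)⁻¹) * h2 d := by
  apply ext3
  intro i j
  fin_cases i <;> fin_cases j <;> simp [h2, lo, mk_mul, Matrix.mul_apply, Fin.sum_univ_three]
  ring

theorem n1_h1 (d : Fˣ) : n1 * h1 d = h1 d⁻¹ * n1 := by
  apply ext3
  intro i j
  fin_cases i <;> fin_cases j <;> simp [n1, h1, mk_mul, Matrix.mul_apply, Fin.sum_univ_three]

theorem n2_h2 (d : Fˣ) : n2 * h2 d = h2 d⁻¹ * n2 := by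
  apply ext3
  intro i j
  fin_cases i <;> fin_cases j <;> simp [n2, h2, mk_mul, Matrix.mul_apply, Fin.sum_univ_three]

omit [CharP F 2] in
theorem h1_mul (d e : Fˣ) : h1 d * h1 e = h1 (d * e) := by
  apply ext3
  intro i j
  fin_cases i <;> fin_cases j <;> simp [h1, mk_mul, Matrix.mul_apply, Fin.sum_univ_three, mul_comm]

theorem up_inv (a b c : F) : (up a b c)⁻¹ = up a b (c + a * b) := by
  rw [inv_eq_iff_mul_eq_one, up_mul, CharTwo.add_self_eq_zero, CharTwo.add_self_eq_zero,
    show c + (c + a * b) + a * b = (c + c) + (a * b + a * b) by ring, CharTwo.add_self_eq_zero,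
    CharTwo.add_self_eq_zero, add_zero, up_zero]

theorem lo_inv (a b c : F) : (lo a b c)⁻¹ = lo a b (c + b * a) := by
  rw [inv_eq_iff_mul_eq_one, lo_mul, CharTwo.add_self_eq_zero, CharTwo.add_self_eq_zero,
    show c + (c + b * a) + b * a = (c + c) + (b * a + b * a) by ring, CharTwo.add_self_eq_zero,
    CharTwo.add_self_eq_zero, add_zero, lo_zero]

/-- the upper unitriangular group -/
def Up (F : Type*) [Field F] [CharP F 2] : Subgroup (SL3 F) where
  carrier := {g | ∃ a b c, g = up a b c}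
  one_mem' := ⟨0, 0, 0, up_zero.symm⟩
  mul_mem' := by
    rintro _ _ ⟨a, b, c, rfl⟩ ⟨a', b', c', rfl⟩
    exact ⟨_, _, _, up_mul _ _ _ _ _ _⟩
  inv_mem' := by
    rintro _ ⟨a, b, c, rfl⟩
    exact ⟨_, _, _, up_inv _ _ _⟩

/-- the lower unitriangular group -/
def Lo (F : Type*) [Field F] [CharP F 2] : Subgroup (SL3 F) where
  carrier := {g | ∃ a b c, g = lo a b c}
  one_mem' := ⟨0, 0, 0, lo_zero.symm⟩
  mul_mem' := by
    rintro _ _ ⟨a, b, c, rfl⟩ ⟨a', b', c', rfl⟩
    exact ⟨_, _, _, lo_mul _ _ _ _ _ _⟩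
  inv_mem' := by
    rintro _ ⟨a, b, c, rfl⟩
    exact ⟨_, _, _, lo_inv _ _ _⟩

theorem isPGroup_Up : IsPGroup 2 (Up F) := by
  rintro ⟨_, a, b, c, rfl⟩
  refine ⟨2, Subtype.ext ?_⟩
  show up a b c ^ (2 ^ 2) = 1
  rw [show (2 : ℕ) ^ 2 = 2 * 2 from rfl, pow_mul, sq, sq, up_mul, up_mul]
  simp only [CharTwo.add_self_eq_zero, mul_zero, add_zero]
  exact up_zero

theorem isPGroup_Lo : IsPGroup 2 (Lo F) := by
  rintro ⟨_, a, b, c, rfl⟩
  refine ⟨2, Subtype.ext ?_⟩
  show lo a b c ^ (2 ^ 2) = 1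
  rw [show (2 : ℕ) ^ 2 = 2 * 2 from rfl, pow_mul, sq, sq, lo_mul, lo_mul]
  simp only [CharTwo.add_self_eq_zero, mul_zero, add_zero]
  exact lo_zero

/-- braid relation -/
theorem braid : (n1 : SL3 F) * n2 * n1 = n2 * n1 * n2 := by
  apply ext3
  intro i j
  fin_cases i <;> fin_cases j <;> simp [n1, n2, mk_mul, Matrix.mul_apply, Fin.sum_univ_three]

/-- the left hand side of the braid relation of the Hecke algebra -/
theorem braid_left (a b c : F) :
    up a 0 0 * n1 * (up 0 b 0 * n2) * (up c 0 0 * n1) = up a c (a * c + b) * (n1 * n2 * n1) := by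
  apply ext3
  intro i j
  fin_cases i <;> fin_cases j <;> simp [n1, n2, up, mk_mul, Matrix.mul_apply, Fin.sum_univ_three]

theorem braid_right (a b c : F) :
    up 0 a 0 * n2 * (up b 0 0 * n1) * (up 0 c 0 * n2) = up c a b * (n1 * n2 * n1) := by
  apply ext3
  intro i j
  fin_cases i <;> fin_cases j <;> simp [n1, n2, up, mk_mul, Matrix.mul_apply, Fin.sum_univ_three]

/-- the scalar matrices -/
def sc (a : Fˣ) (h : a ^ 3 = 1) : SL3 F := ⟨!![(a : F), 0, 0; 0, (a : F), 0; 0, 0, (a : F)], by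
  have h' : (a : F) ^ 3 = 1 := by rw [← Units.val_pow_eq_pow_val, h, Units.val_one]
  simp [Matrix.det_fin_three]
  rw [← h']
  ring⟩

omit [CharP F 2] in
theorem h1_eq (a : Fˣ) (h : a ^ 3 = 1) : h1 a = sc a h * h2 a := by
  have h' : (a : F) ^ 3 = 1 := by rw [← Units.val_pow_eq_pow_val, h, Units.val_one]
  have ha : (a : F) ≠ 0 := a.ne_zero
  have h3 : (a : F) * a = (a : F)⁻¹ := by
    refine eq_inv_of_mul_eq_one_left ?_
    rw [← h']
    ring
  apply ext3
  intro i j
  fin_cases i <;> fin_cases j <;> simp [h1, h2, sc, mk_mul, Matrix.mul_apply, Fin.sum_univ_three, h3]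

/-- generation -/
theorem top_of (S : Subgroup (SL3 F)) (hl : ∀ a b c, lo a b c ∈ S) (h1' : n1 ∈ S) (h2' : n2 ∈ S) : S = ⊤ := by
  have hu : ∀ a b c, up a b c ∈ S := by
    intro a b c
    have h3 : n1 * n2 * n1 * lo a b c * (n1 * n2 * n1) = up b a c := by
      apply ext3
      intro i j
      fin_cases i <;> fin_cases j <;> simp [n1, n2, up, lo, mk_mul, Matrix.mul_apply, Fin.sum_univ_three]
    have h4 : up a b c = n1 * n2 * n1 * lo b a c * (n1 * n2 * n1) := by
      apply ext3
      intro i j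
      fin_cases i <;> fin_cases j <;> simp [n1, n2, up, lo, mk_mul, Matrix.mul_apply, Fin.sum_univ_three]
    rw [h4]
    exact S.mul_mem (S.mul_mem (S.mul_mem (S.mul_mem h1' h2') h1') (hl _ _ _)) (S.mul_mem (S.mul_mem h1' h2') h1')
  rw [eq_top_iff, ← LieClassical.SLGen.closure_transvections, Subgroup.closure_le]
  have key : ∀ (i j : Fin 3) (hij : i ≠ j) (c : F), Matrix.SpecialLinearGroup.transvection hij c ∈ S := by
    intro i j hij c
    have hm : ((i = 0 ∧ j = 1) ∨ (i = 0 ∧ j = 2) ∨ (i = 1 ∧ j = 2)) ∨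
        ((i = 1 ∧ j = 0) ∨ (i = 2 ∧ j = 0) ∨ (i = 2 ∧ j = 1)) := by
      revert i j
      decide
    rcases hm with (⟨rfl, rfl⟩ | ⟨rfl, rfl⟩ | ⟨rfl, rfl⟩) | (⟨rfl, rfl⟩ | ⟨rfl, rfl⟩ | ⟨rfl, rfl⟩)
    · have : Matrix.SpecialLinearGroup.transvection hij c = up c 0 0 := by
        apply ext3
        intro i j
        fin_cases i <;> fin_cases j <;>
          simp [up, Matrix.SpecialLinearGroup.transvection, Matrix.transvection, Matrix.single, Matrix.one_apply]
      rw [this]
      exact hu _ _ _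
    · have : Matrix.SpecialLinearGroup.transvection hij c = up 0 0 c := by
        apply ext3
        intro i j
        fin_cases i <;> fin_cases j <;>
          simp [up, Matrix.SpecialLinearGroup.transvection, Matrix.transvection, Matrix.single, Matrix.one_apply]
      rw [this]
      exact hu _ _ _
    · have : Matrix.SpecialLinearGroup.transvection hij c = up 0 c 0 := by
        apply ext3
        intro i j
        fin_cases i <;> fin_cases j <;>
          simp [up, Matrix.SpecialLinearGroup.transvection, Matrix.transvection, Matrix.single, Matrix.one_apply]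
      rw [this]
      exact hu _ _ _
    · have : Matrix.SpecialLinearGroup.transvection hij c = lo c 0 0 := by
        apply ext3
        intro i j
        fin_cases i <;> fin_cases j <;>
          simp [lo, Matrix.SpecialLinearGroup.transvection, Matrix.transvection, Matrix.single, Matrix.one_apply]
      rw [this]
      exact hl _ _ _
    · have : Matrix.SpecialLinearGroup.transvection hij c = lo 0 0 c := by
        apply ext3
        intro i j
        fin_cases i <;> fin_cases j <;>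
          simp [lo, Matrix.SpecialLinearGroup.transvection, Matrix.transvection, Matrix.single, Matrix.one_apply]
      rw [this]
      exact hl _ _ _
    · have : Matrix.SpecialLinearGroup.transvection hij c = lo 0 c 0 := by
        apply ext3
        intro i j
        fin_cases i <;> fin_cases j <;>
          simp [lo, Matrix.SpecialLinearGroup.transvection, Matrix.transvection, Matrix.single, Matrix.one_apply]
      rw [this]
      exact hl _ _ _
  rintro A ⟨i, j, hij, c, rfl⟩
  exact key i j hij c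

end Cfsg.Agent.H902.L34
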