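import Cfsg.Agent.H902.L34.CR

/-!
# The module of the traceless matrices over the field with four elements (helper902)
-/

set_option autoImplicit false
set_option linter.unusedSectionVars false
set_option linter.unusedSimpArgs false
set_option linter.unnecessarySeqFocus false

namespace Cfsg.Agent.H902.L34

open Matrix

variable {F : Type*} [Field F]

/-- the traceless matrices -/
def Tl (F : Type*) [Field F] : AddSubgroup (Matrix (Fin 3) (Fin 3) F) where
  carrier := {X | X.trace = 0}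
  zero_mem' := Matrix.trace_zero _ _
  add_mem' := fun {a b} ha hb => by
    show (a + b).trace = 0
    rw [Matrix.trace_add, show a.trace = 0 from ha, show b.trace = 0 from hb, add_zero]
  neg_mem' := fun {a} ha => by
    show (-a).trace = 0
    rw [Matrix.trace_neg, show a.trace = 0 from ha, neg_zero]

variable [CharP F 2]

instance modTl : Module (ZMod 2) (Tl F) := AddCommGroup.zmodModule (fun x => by
  apply Subtype.ext
  ext i j
  show ((2 : ℕ) • (x : Matrix (Fin 3) (Fin 3) F)) i j = 0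
  rw [two_nsmul, Matrix.add_apply, CharTwo.add_self_eq_zero])

/-- conjugation -/
def cj (g : SL3 F) : Tl F →+ Tl F where
  toFun X := ⟨(g : Matrix (Fin 3) (Fin 3) F) * X * ((g⁻¹ : SL3 F) : Matrix (Fin 3) (Fin 3) F), by
    show ((g : Matrix (Fin 3) (Fin 3) F) * X * ((g⁻¹ : SL3 F) : Matrix (Fin 3) (Fin 3) F)).trace = 0
    rw [Matrix.trace_mul_comm, ← Matrix.mul_assoc]
    have h : ((g⁻¹ : SL3 F) : Matrix (Fin 3) (Fin 3) F) * (g : Matrix (Fin 3) (Fin 3) F) = 1 := by
      rw [← Matrix.SpecialLinearGroup.coe_mul, inv_mul_cancel, Matrix.SpecialLinearGroup.coe_one]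
    rw [h, Matrix.one_mul]
    exact X.2⟩
  map_zero' := by
    apply Subtype.ext
    show (g : Matrix (Fin 3) (Fin 3) F) * 0 * _ = 0
    rw [Matrix.mul_zero, Matrix.zero_mul]
  map_add' X Y := by
    apply Subtype.ext
    show (g : Matrix (Fin 3) (Fin 3) F) * ((X : Matrix (Fin 3) (Fin 3) F) + Y) * _ = _
    rw [Matrix.mul_add, Matrix.add_mul]
    rfl

/-- the adjoint module -/
def adj (F : Type*) [Field F] [CharP F 2] : Representation (ZMod 2) (SL3 F) (Tl F) where
  toFun g := (cj g).toZModLinearMap 2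
  map_one' := by
    apply LinearMap.ext
    intro X
    apply Subtype.ext
    show ((1 : SL3 F) : Matrix (Fin 3) (Fin 3) F) * X * (((1 : SL3 F)⁻¹ : SL3 F) : Matrix (Fin 3) (Fin 3) F) = X
    rw [inv_one, Matrix.SpecialLinearGroup.coe_one, Matrix.one_mul, Matrix.mul_one]
  map_mul' g h := by
    apply LinearMap.ext
    intro X
    apply Subtype.ext
    show ((g * h : SL3 F) : Matrix (Fin 3) (Fin 3) F) * X * (((g * h)⁻¹ : SL3 F) : Matrix (Fin 3) (Fin 3) F) =
      (g : Matrix (Fin 3) (Fin 3) F) * ((h : Matrix (Fin 3) (Fin 3) F) * X *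
        ((h⁻¹ : SL3 F) : Matrix (Fin 3) (Fin 3) F)) * ((g⁻¹ : SL3 F) : Matrix (Fin 3) (Fin 3) F)
    rw [_root_.mul_inv_rev, Matrix.SpecialLinearGroup.coe_mul, Matrix.SpecialLinearGroup.coe_mul]
    simp only [Matrix.mul_assoc]

theorem adj_coe (g : SL3 F) (X : Tl F) : ((adj F g X : Tl F) : Matrix (Fin 3) (Fin 3) F) =
    (g : Matrix (Fin 3) (Fin 3) F) * X * ((g⁻¹ : SL3 F) : Matrix (Fin 3) (Fin 3) F) := rfl

theorem adj_eq {g : SL3 F} {X Y : Tl F}
    (h : (g : Matrix (Fin 3) (Fin 3) F) * X = (Y : Matrix (Fin 3) (Fin 3) F) * g) : adj F g X = Y := by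
  apply Subtype.ext
  rw [adj_coe, h, Matrix.mul_assoc, ← Matrix.SpecialLinearGroup.coe_mul, mul_inv_cancel,
    Matrix.SpecialLinearGroup.coe_one, Matrix.mul_one]

theorem of_adj_eq {g : SL3 F} {X Y : Tl F} (h : adj F g X = Y) :
    (g : Matrix (Fin 3) (Fin 3) F) * X = (Y : Matrix (Fin 3) (Fin 3) F) * g := by
  rw [← h, adj_coe, Matrix.mul_assoc _ _ (g : Matrix (Fin 3) (Fin 3) F), ← Matrix.SpecialLinearGroup.coe_mul,
    inv_mul_cancel, Matrix.SpecialLinearGroup.coe_one, Matrix.mul_one]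

/-- coordinates -/
def mk (a b c d e f g h : F) : Tl F := ⟨!![g, a, b; c, g + h, d; e, f, h], by
  show (!![g, a, b; c, g + h, d; e, f, h] : Matrix (Fin 3) (Fin 3) F).trace = 0
  rw [Matrix.trace_fin_three]
  show g + (g + h) + h = 0
  rw [show g + (g + h) + h = (g + g) + (h + h) by ring, CharTwo.add_self_eq_zero, CharTwo.add_self_eq_zero, add_zero]⟩

theorem mk_add (a b c d e f g h a' b' c' d' e' f' g' h' : F) : mk a b c d e f g h + mk a' b' c' d' e' f' g' h' =
    mk (a + a') (b + b') (c + c') (d + d') (e + e') (f + f') (g + g') (h + h') := by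
  apply Subtype.ext
  show (!![g, a, b; c, g + h, d; e, f, h] : Matrix (Fin 3) (Fin 3) F) + !![g', a', b'; c', g' + h', d'; e', f', h'] = _
  ext i j
  fin_cases i <;> fin_cases j <;> simp [mk, add_add_add_comm]

theorem eq_mk (X : Tl F) : X = mk (X.1 0 1) (X.1 0 2) (X.1 1 0) (X.1 1 2) (X.1 2 0) (X.1 2 1) (X.1 0 0) (X.1 2 2) := by
  apply Subtype.ext
  have h : X.1 0 0 + X.1 1 1 + X.1 2 2 = 0 := by
    have := X.2
    rwa [← Matrix.trace_fin_three]
  have h2 : X.1 1 1 = X.1 0 0 + X.1 2 2 := by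
    have h3 : X.1 1 1 = (X.1 0 0 + X.1 1 1 + X.1 2 2) + (X.1 0 0 + X.1 2 2) := by
      rw [show (X.1 0 0 + X.1 1 1 + X.1 2 2) + (X.1 0 0 + X.1 2 2) =
        X.1 1 1 + ((X.1 0 0 + X.1 0 0) + (X.1 2 2 + X.1 2 2)) by ring, CharTwo.add_self_eq_zero,
        CharTwo.add_self_eq_zero, add_zero, add_zero]
    rw [h3, h, zero_add]
  ext i j
  fin_cases i <;> fin_cases j <;> simp [mk, h2]

theorem adj_n1 (a b c d e f g h : F) : adj F n1 (mk a b c d e f g h) = mk c d a b f e (g + h) h := by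
  apply adj_eq
  ext i j
  have h1 : g + h + h = g := by rw [add_assoc, CharTwo.add_self_eq_zero, add_zero]
  fin_cases i <;> fin_cases j <;> simp [mk, n1, Matrix.mul_apply, Fin.sum_univ_three, h1]

theorem adj_n2 (a b c d e f g h : F) : adj F n2 (mk a b c d e f g h) = mk b a e f c d g (g + h) := by
  apply adj_eq
  ext i j
  have h1 : g + (g + h) = h := by rw [← add_assoc, CharTwo.add_self_eq_zero, zero_add]
  fin_cases i <;> fin_cases j <;> simp [mk, n2, Matrix.mul_apply, Fin.sum_univ_three, h1]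

theorem adj_lo1 (a : F) : adj F (lo 1 0 0) (mk a 0 0 0 0 0 0 0) = mk a 0 a 0 0 0 a 0 := by
  apply adj_eq
  ext i j
  fin_cases i <;> fin_cases j <;>
    simp [mk, lo, Matrix.mul_apply, Fin.sum_univ_three, CharTwo.add_self_eq_zero]

theorem adj_lo2 (d : F) : adj F (lo 0 1 0) (mk 0 0 0 d 0 0 0 0) = mk 0 0 0 d 0 d 0 d := by
  apply adj_eq
  ext i j
  fin_cases i <;> fin_cases j <;>
    simp [mk, lo, Matrix.mul_apply, Fin.sum_univ_three, CharTwo.add_self_eq_zero]

theorem adj_h1 (u : Fˣ) (b : F) : adj F (h1 u) (mk 0 b 0 0 0 0 0 0) = mk 0 (u * b) 0 0 0 0 0 0 := by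
  apply adj_eq
  ext i j
  fin_cases i <;> fin_cases j <;> simp [mk, h1, Matrix.mul_apply, Fin.sum_univ_three]

theorem adj_up (a b c x : F) : adj F (up a b c) (mk 0 x 0 0 0 0 0 0) = mk 0 x 0 0 0 0 0 0 := by
  apply adj_eq
  ext i j
  fin_cases i <;> fin_cases j <;> simp [mk, up, Matrix.mul_apply, Fin.sum_univ_three]

theorem adj_up1 (a : F) : adj F (up a 0 0 * n1) (mk 0 1 0 0 0 0 0 0) = mk 0 a 0 1 0 0 0 0 := by
  rw [rmul, adj_n1]
  apply adj_eq
  ext i j
  fin_cases i <;> fin_cases j <;> simp [mk, up, Matrix.mul_apply, Fin.sum_univ_three]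

theorem adj_up2 (a : F) : adj F (up 0 a 0 * n2) (mk 0 1 0 0 0 0 0 0) = mk 1 a 0 0 0 0 0 0 := by
  rw [rmul, adj_n2]
  apply adj_eq
  ext i j
  fin_cases i <;> fin_cases j <;>
    simp [mk, up, Matrix.mul_apply, Fin.sum_univ_three, CharTwo.add_self_eq_zero]

/-- fixed vectors -/
theorem fix_eq {X : Tl F} (hX : UFix (adj F) X) : X = mk 0 (X.1 0 2) 0 0 0 0 0 0 := by
  have e1 := of_adj_eq (hX 1 0 0)
  have e2 := of_adj_eq (hX 0 1 0)
  have g1 : ∀ i j, ((up 1 0 0 : SL3 F).1 * X.1) i j = (X.1 * (up 1 0 0 : SL3 F).1) i j := fun i j => by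
    exact congrFun (congrFun e1 i) j
  have g2 : ∀ i j, ((up 0 1 0 : SL3 F).1 * X.1) i j = (X.1 * (up 0 1 0 : SL3 F).1) i j := fun i j => by
    exact congrFun (congrFun e2 i) j
  have a00 := g1 0 0
  have a01 := g1 0 1
  have a02 := g1 0 2
  have a21 := g1 2 1
  have b22 := g2 1 1
  have b12 := g2 1 2
  have b02 := g2 0 2
  have b10 := g2 1 0
  simp [up, Matrix.mul_apply, Fin.sum_univ_three] at a00 a01 a02 a21 b22 b12 b02 b10
  have h : X.1 0 0 + X.1 1 1 + X.1 2 2 = 0 := by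
    have := X.2
    rwa [← Matrix.trace_fin_three]
  have e11 : X.1 1 1 = X.1 0 0 := by
    rw [add_comm (X.1 0 0)] at a01
    exact add_left_cancel a01
  have e22 : X.1 2 2 = X.1 0 0 := by
    rw [a02, zero_add, add_zero, e11] at b12
    exact b12
  have h3 : X.1 0 0 = 0 := by
    rw [e11, e22, CharTwo.add_self_eq_zero, zero_add] at h
    exact h
  have h4 : X.1 2 2 = 0 := by rw [e22, h3]
  conv_lhs => rw [eq_mk X]
  rw [b02, a00, a02, a21, b22, h3, h4]

variable [Fintype F] [DecidableEq F]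

theorem sum_id (hF : Fintype.card F = 4) : ∑ a : F, a = 0 := by
  obtain ⟨u, hu⟩ : ∃ u : Fˣ, u ≠ 1 := by
    have h : 1 < Fintype.card Fˣ := by
      rw [Fintype.card_units, hF]
      norm_num
    have : Nontrivial Fˣ := Fintype.one_lt_card_iff_nontrivial.1 h
    exact exists_ne 1
  have h1 : (u : F) * ∑ a : F, a = ∑ a : F, a := by
    rw [Finset.mul_sum]
    exact Fintype.sum_equiv (Equiv.mulLeft₀ (u : F) u.ne_zero) _ _ fun a => rfl
  have h2 : ((u : F) - 1) * ∑ a : F, a = 0 := by rw [sub_mul, h1, one_mul, sub_self]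
  rcases mul_eq_zero.1 h2 with h3 | h3
  · exact absurd (Units.ext (sub_eq_zero.1 h3)) hu
  · exact h3

theorem sum_mk (f : F → F) : ∑ a : F, mk 0 (f a) 0 0 0 0 0 0 = mk 0 (∑ a : F, f a) 0 0 0 0 0 0 := by
  let φ : F →+ Tl F := ⟨⟨fun x => mk 0 x 0 0 0 0 0 0, by
    apply Subtype.ext
    ext i j
    fin_cases i <;> fin_cases j <;> simp [mk]⟩, fun x y => by
      show mk 0 (x + y) 0 0 0 0 0 0 = mk 0 x 0 0 0 0 0 0 + mk 0 y 0 0 0 0 0 0
      rw [mk_add]
      simp only [add_zero]⟩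
  exact (map_sum φ f Finset.univ).symm

/-- the highest weight vector -/
def yy (F : Type*) [Field F] [CharP F 2] : Tl F := mk 0 1 0 0 0 0 0 0

theorem mk_zero : mk (0 : F) 0 0 0 0 0 0 0 = 0 := by
  apply Subtype.ext
  ext i j
  fin_cases i <;> fin_cases j <;> simp [mk]

theorem yy_datN (hF : Fintype.card F = 4) : DatN (adj F) (yy F) := by
  refine ⟨?_, fun a b c => adj_up a b c 1, ?_, ?_, ?_⟩
  · intro h
    have h1 : (yy F).1 0 2 = 0 := by rw [h]; rfl
    have h2 : (yy F).1 0 2 = 1 := rfl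
    rw [h2] at h1
    exact one_ne_zero h1
  · rw [E_apply]
    have h1 : ∑ d : Fˣ, adj F (h1 d) (yy F) = ∑ d : Fˣ, mk 0 (d : F) 0 0 0 0 0 0 :=
      Finset.sum_congr rfl fun d _ => by rw [yy, adj_h1, mul_one]
    rw [h1, ← sum_units (f := fun a : F => mk 0 a 0 0 0 0 0 0) mk_zero, sum_mk, sum_id hF, mk_zero]
  · rw [T1_apply]
    have h1 : ∑ a : F, adj F (up a 0 0 * n1) (yy F) = ∑ a : F, (mk 0 a 0 0 0 0 0 0 + mk 0 0 0 1 0 0 0 0) :=
      Finset.sum_congr rfl fun a _ => by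
        rw [yy, adj_up1, mk_add]
        simp only [add_zero, zero_add]
    rw [h1, Finset.sum_add_distrib, sum_mk, sum_id hF, mk_zero, zero_add, sum_const hF]
  · rw [T2_apply]
    have h1 : ∑ a : F, adj F (up 0 a 0 * n2) (yy F) = ∑ a : F, (mk 0 a 0 0 0 0 0 0 + mk 1 0 0 0 0 0 0 0) :=
      Finset.sum_congr rfl fun a _ => by
        rw [yy, adj_up2, mk_add]
        simp only [add_zero, zero_add]
    rw [h1, Finset.sum_add_distrib, sum_mk, sum_id hF, mk_zero, zero_add, sum_const hF]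

theorem adj_sc : ScTriv (adj F) := by
  intro a h X
  apply adj_eq
  ext i j
  fin_cases i <;> fin_cases j <;> simp [sc, Matrix.mul_apply, Fin.sum_univ_three, mul_comm]

/-- restriction to an invariant subspace -/
def sub {G : Type*} [Group G] {V : Type*} [AddCommGroup V] [Module (ZMod 2) V] (ρ : Representation (ZMod 2) G V)
    (W : Submodule (ZMod 2) V) (hW : ∀ g, ∀ w ∈ W, ρ g w ∈ W) : Representation (ZMod 2) G W where
  toFun g := (ρ g).restrict (hW g)
  map_one' := by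
    apply LinearMap.ext
    intro x
    apply Subtype.ext
    show ρ 1 x = x
    rw [map_one]
    rfl
  map_mul' g h := by
    apply LinearMap.ext
    intro x
    apply Subtype.ext
    exact rmul ρ g h x

theorem sub_coe {G : Type*} [Group G] {V : Type*} [AddCommGroup V] [Module (ZMod 2) V]
    (ρ : Representation (ZMod 2) G V) (W : Submodule (ZMod 2) V) (hW : ∀ g, ∀ w ∈ W, ρ g w ∈ W) (g : G) (x : W) :
    ((sub ρ W hW g x : W) : V) = ρ g x := rfl

/-- **the adjoint module is irreducible** -/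
theorem adj_irr : Irr (adj F) := by
  intro W hW
  by_cases hbot : W = ⊥
  · exact Or.inl hbot
  right
  have hnt : Nontrivial W := Submodule.nontrivial_iff_ne_bot.2 hbot
  have hfin : Finite (Tl F) := inferInstance
  have hfW : Finite W := inferInstance
  obtain ⟨X, hX0, hX⟩ := exists_uFix (sub (adj F) W hW)
  have hXf : UFix (adj F) (X : Tl F) := fun a b c => congrArg Subtype.val (hX a b c)
  have hXe := fix_eq hXf
  have hx0 : (X : Tl F).1 0 2 ≠ 0 := by
    intro h
    apply hX0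
    apply Subtype.ext
    rw [hXe, h, mk_zero]
    rfl
  obtain ⟨x, hx⟩ : ∃ x, x = (X : Tl F).1 0 2 := ⟨_, rfl⟩
  have hXm : mk 0 x 0 0 0 0 0 0 ∈ W := by
    have := X.2
    rw [hXe, ← hx] at this
    exact this
  rw [← hx] at hx0
  -- the highest weight space
  have b1 : ∀ c : F, mk 0 c 0 0 0 0 0 0 ∈ W := by
    intro c
    by_cases hc : c = 0
    · rw [hc, mk_zero]
      exact zero_mem _
    · have h := hW (h1 (Units.mk0 (c / x) (div_ne_zero hc hx0))) _ hXm
      rw [adj_h1, Units.val_mk0, div_mul_cancel₀ _ hx0] at h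
      exact h
  have b2 : ∀ c : F, mk 0 0 0 c 0 0 0 0 ∈ W := fun c => by
    have h := hW n1 _ (b1 c)
    rw [adj_n1, add_zero] at h
    exact h
  have b3 : ∀ c : F, mk c 0 0 0 0 0 0 0 ∈ W := fun c => by
    have h := hW n2 _ (b1 c)
    rw [adj_n2, add_zero] at h
    exact h
  have b4 : ∀ c : F, mk 0 0 c 0 0 0 0 0 ∈ W := fun c => by
    have h := hW n1 _ (b3 c)
    rw [adj_n1, add_zero] at h
    exact h
  have b5 : ∀ c : F, mk 0 0 0 0 0 c 0 0 ∈ W := fun c => by
    have h := hW n2 _ (b2 c)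
    rw [adj_n2, add_zero] at h
    exact h
  have b6 : ∀ c : F, mk 0 0 0 0 c 0 0 0 ∈ W := fun c => by
    have h := hW n2 _ (b4 c)
    rw [adj_n2, add_zero] at h
    exact h
  have b7 : ∀ c : F, mk 0 0 0 0 0 0 c 0 ∈ W := fun c => by
    have h := hW (lo 1 0 0) _ (b3 c)
    rw [adj_lo1] at h
    have h2 := add_mem h (add_mem (b3 c) (b4 c))
    rw [mk_add, mk_add] at h2
    simp only [add_zero, zero_add, CharTwo.add_self_eq_zero] at h2
    exact h2
  have b8 : ∀ c : F, mk 0 0 0 0 0 0 0 c ∈ W := fun c => by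
    have h := hW (lo 0 1 0) _ (b2 c)
    rw [adj_lo2] at h
    have h2 := add_mem h (add_mem (b2 c) (b5 c))
    rw [mk_add, mk_add] at h2
    simp only [add_zero, zero_add, CharTwo.add_self_eq_zero] at h2
    exact h2
  rw [eq_top_iff]
  intro Y _
  rw [eq_mk Y]
  have h := add_mem (b3 (Y.1 0 1)) (add_mem (b1 (Y.1 0 2)) (add_mem (b4 (Y.1 1 0)) (add_mem (b2 (Y.1 1 2))
    (add_mem (b6 (Y.1 2 0)) (add_mem (b5 (Y.1 2 1)) (add_mem (b7 (Y.1 0 0)) (b8 (Y.1 2 2))))))))
  simp only [mk_add, add_zero, zero_add] at h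
  exact h

end Cfsg.Agent.H902.L34
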